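import Cfsg.Agent.Base
import Cfsg.Agent.Lib.PF.Clifford
import Cfsg.Agent.Lib.PF.Lin
import Cfsg.Agent.Lib.Core.HallSZ

/-!
Small characters of groups in which the non-identity elements of an abelian Sylow subgroup all have the
same centraliser (Brauer, Leonard).
-/

set_option autoImplicit false
set_option linter.unusedSectionVars false

open scoped Classical ComplexConjugate BigOperators

namespace H8

open Cfsg H51

variable {G : Type*} [Group G] [Fintype G]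

/-- a class function is at least as long as its part on the conjugates of a TI set -/
theorem sum_TI_lt {A : Set G} {N : Subgroup G} (h : NormedTI A ⊤ N) {φ : G → ℂ} (hφ : φ ∈ CF ⊤)
    (h1 : φ 1 ≠ 0) : ∑ x ∈ elems A, ‖φ x‖ ^ 2 < Nat.card N * nrm ⊤ φ := by
  have hα : A.indicator φ ∈ CFon N A := by
    refine mem_CFon.2 ⟨mem_CF.2 ⟨fun x hx => Set.indicator_of_notMem (fun e => hx (h.sub e)) _,
      fun g hg x => ?_⟩, fun x hx => Set.indicator_of_notMem hx _⟩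
    by_cases hx : x ∈ A
    · rw [Set.indicator_of_mem hx, Set.indicator_of_mem (h.conj_mem g hg x hx), CF_conj hφ trivial]
    · rw [Set.indicator_of_notMem hx, Set.indicator_of_notMem fun e => hx ?_]
      simpa [mul_assoc] using h.conj_mem g⁻¹ (N.inv_mem hg) _ e
  have h2 : (Nat.card N : ℝ) * nrm N (A.indicator φ) = ∑ x ∈ elems A, ‖φ x‖ ^ 2 := by
    rw [card_mul_nrm, sum_eq_sum_elems A fun x hx => by simp [Set.indicator_of_notMem hx]]
    exact Finset.sum_congr rfl fun x hx => by rw [Set.indicator_of_mem (mem_elems.1 hx)]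
  rw [← h2, ← h.nrm_ind hα]
  refine mul_lt_mul_of_pos_left ?_ (card_pos_real N)
  rw [nrm_def, nrm_def]
  refine mul_lt_mul_of_pos_left (Finset.sum_lt_sum (fun x _ => ?_) ⟨1, Finset.mem_univ _, ?_⟩)
    (inv_pos.2 (card_pos_real _))
  · by_cases hx : x ∈ conjSet ⊤ A
    · obtain ⟨g, hg, a, ha, rfl⟩ := mem_conjSet.1 hx
      rw [h.ind_apply_conj hα ha hg, Set.indicator_of_mem ha, CF_conj hφ hg]
    · rw [CFon_zero (h.ind_mem_CFon hα) hx]
      simp
  · rw [h.ind_one hα, norm_zero, zero_pow two_ne_zero]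
    exact pow_pos (norm_pos_iff.2 h1) 2

theorem nrm_sum_le_sq (X : Subgroup G) {ι : Type*} (s : Finset ι) (m : ι → ℕ) (η : ι → G → ℂ)
    (h : ∀ i ∈ s, η i ∈ irr X) :
    nrm X (∑ i ∈ s, (m i : ℂ) • η i) ≤ (∑ i ∈ s, (m i : ℝ)) ^ 2 := by
  rw [nrm_eq_re, dot_sum_left, sq, Finset.sum_mul_sum, Complex.re_sum]
  refine Finset.sum_le_sum fun i hi => ?_
  rw [dot_sum_right, Complex.re_sum]
  refine Finset.sum_le_sum fun j hj => ?_
  rw [dot_smul_left, dot_natCast_smul_right, dot_irr (h i hi) (h j hj)]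
  split_ifs
  · simp
  · simp only [mul_zero, Complex.zero_re]
    positivity

theorem nrm_sum_irr {L : Subgroup G} {s : Finset (G → ℂ)} (hs : s ⊆ irr L) (m : (G → ℂ) → ℕ) :
    nrm L (∑ ψ ∈ s, (m ψ : ℂ) • ψ) = ∑ ψ ∈ s, (m ψ : ℝ) ^ 2 := by
  rw [nrm_sum_of_ortho]
  · exact Finset.sum_congr rfl fun ψ hψ => by rw [nrm_natCast_smul, nrm_irr (hs hψ), mul_one]
  · intro i hi j hj hij
    rw [dot_smul_left, dot_natCast_smul_right, dot_irr_ne (hs hi) (hs hj) hij, mul_zero, mul_zero]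

theorem eq_sum_of_sum_le {ι M : Type*} [AddCommMonoid M] [Module ℂ M] {s O : Finset ι} (hO : O ⊆ s)
    {m : ι → ℕ} (h1 : ∀ i ∈ O, m i ≠ 0) (h2 : ∑ i ∈ s, m i ≤ O.card) (v : ι → M) :
    ∑ i ∈ s, (m i : ℂ) • v i = ∑ i ∈ O, v i := by
  have h3 := Finset.sum_sdiff hO (f := m)
  have h4 : ∑ i ∈ O, 1 ≤ ∑ i ∈ O, m i :=
    Finset.sum_le_sum fun i hi => Nat.one_le_iff_ne_zero.2 (h1 i hi)
  have h5 := (Finset.sum_eq_sum_iff_of_le fun i hi => Nat.one_le_iff_ne_zero.2 (h1 i hi)).1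
    (le_antisymm h4 (by simp only [Finset.sum_const, smul_eq_mul, mul_one]; omega))
  have h6 : ∑ i ∈ s \ O, m i = 0 := by
    simp only [Finset.sum_const, smul_eq_mul, mul_one] at h4
    omega
  rw [← Finset.sum_sdiff hO, Finset.sum_eq_zero fun i hi => by
    rw [Finset.sum_eq_zero_iff.1 h6 i hi, Nat.cast_zero, zero_smul], zero_add]
  exact Finset.sum_congr rfl fun i hi => by rw [← h5 i hi, Nat.cast_one, one_smul]

/-- the configuration `C = P × X`, `C - X` a TI set with normaliser `N` -/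
structure Leo (P X N : Subgroup G) : Prop where
  disj : P ⊓ X = ⊥
  cent : ∀ u ∈ P, ∀ c ∈ P ⊔ X, u * c = c * u
  normC : NormalIn (P ⊔ X) N
  normP : NormalIn P N
  fpf : ∀ n ∈ N, ∀ u ∈ P, u ≠ 1 → n * u = u * n → n ∈ P ⊔ X
  ti : NormedTI (((P ⊔ X : Subgroup G) : Set G) \ X) ⊤ N

variable {P X N : Subgroup G}

theorem Leo.comm (h : Leo P X N) : ∀ a ∈ P, ∀ b ∈ X, a * b = b * a :=
  fun a ha b hb => h.cent a ha b (Subgroup.mem_sup_right hb)

theorem Leo.commP (h : Leo P X N) : ∀ a ∈ P, ∀ b ∈ P, a * b = b * a :=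
  fun a ha b hb => h.cent a ha b (Subgroup.mem_sup_left hb)

theorem Leo.card (h : Leo P X N) : Nat.card ↥(P ⊔ X) = Nat.card P * Nat.card X := by
  obtain ⟨e, -⟩ := exists_dprod_equiv h.disj h.comm
  rw [← Nat.card_congr e.toEquiv, Nat.card_prod]

theorem Leo.res_mem_irr (h : Leo P X N) {ψ : G → ℂ} (hψ : ψ ∈ irr (P ⊔ X)) : res X ψ ∈ irr X := by
  obtain ⟨φ, hφ, η, hη, rfl⟩ := exists_convol_of_mem_irr h.disj h.comm hψ
  rw [res_convol_right h.disj (irr_supp hφ) (irr_supp hη), irr_apply_one hφ,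
    deg_eq_one_of_comm h.commP hφ, Nat.cast_one, one_smul]
  exact hη

theorem Leo.key (h : Leo P X N) {φ : G → ℂ} (hφ : φ ∈ CF ⊤) (h1 : φ 1 ≠ 0) {s : Finset (G → ℂ)}
    (hs : s ⊆ irr (P ⊔ X)) {m : (G → ℂ) → ℕ} (hm : res (P ⊔ X) φ = ∑ ψ ∈ s, (m ψ : ℂ) • ψ)
    {k : ℕ} (hk : nrm ⊤ φ = k) : Nat.card P * ∑ ψ ∈ s, m ψ ^ 2 <
      (P ⊔ X).relIndex N * Nat.card P * k + (∑ ψ ∈ s, m ψ) ^ 2 := by
  have h2 := sum_TI_lt h.ti hφ h1
  have h3 : ∀ L : Subgroup G, ∑ x ∈ elems (L : Set G), ‖φ x‖ ^ 2 = Nat.card L * nrm L (res L φ) :=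
    fun L => by
      rw [card_mul_nrm, sum_eq_sum_elems (L : Set G) fun x hx => by simp [res_of_not_mem φ hx]]
      exact Finset.sum_congr rfl fun x hx => by rw [res_of_mem φ (mem_elems.1 hx)]
  have h4 : elems (((P ⊔ X : Subgroup G) : Set G) \ X) =
      elems ((P ⊔ X : Subgroup G) : Set G) \ elems (X : Set G) := by ext; simp
  have h5 := nrm_sum_le_sq X s m (fun ψ => res X ψ) fun ψ hψ => h.res_mem_irr (hs hψ)
  have h6 : res X φ = ∑ ψ ∈ s, (m ψ : ℂ) • res X ψ := by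
    rw [← res_res (le_sup_right : X ≤ P ⊔ X), hm, map_sum]
    simp only [map_smul]
  rw [h4, Finset.sum_sdiff_eq_sub (fun x hx => mem_elems.2
    (Subgroup.mem_sup_right (mem_elems.1 hx))), h3, h3, hm, nrm_sum_irr hs, h6, hk,
    card_eq_relIndex_mul h.normC.le, h.card] at h2
  have hX := card_pos_real X
  push_cast at h2
  have h7 : (Nat.card P : ℝ) * ∑ ψ ∈ s, (m ψ : ℝ) ^ 2 <
      (P ⊔ X).relIndex N * Nat.card P * k + (∑ ψ ∈ s, (m ψ : ℝ)) ^ 2 := by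
    refine lt_of_mul_lt_mul_left ?_ hX.le
    nlinarith [mul_le_mul_of_nonneg_left h5 hX.le]
  exact_mod_cast h7

theorem Leo.mem_of_lin (h : Leo P X N) {i : Dual P} (hi : i ≠ 1) {n : G} (hn : n ∈ N)
    (e : ∀ u ∈ P, lin P i (n * u * n⁻¹) = lin P i u) : n ∈ P ⊔ X := by
  by_contra hc
  let f : P → P := fun u => ⟨(u : G)⁻¹ * (n * u * n⁻¹),
    P.mul_mem (P.inv_mem u.2) (h.normP.conj_mem n hn _ u.2)⟩
  have hf : Function.Injective f := fun u v huv => by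
    have e1 : (u : G)⁻¹ * (n * u * n⁻¹) = (v : G)⁻¹ * (n * v * n⁻¹) := congrArg Subtype.val huv
    by_contra hne
    refine hc (h.fpf n hn (v * u⁻¹) (P.mul_mem v.2 (P.inv_mem u.2))
      (fun e => hne (Subtype.ext (mul_inv_eq_one.1 e).symm)) ?_)
    calc n * (v * (u : G)⁻¹) = v * ((v : G)⁻¹ * (n * v * n⁻¹)) * (n * (u : G)⁻¹) := by group
      _ = v * ((u : G)⁻¹ * (n * u * n⁻¹)) * (n * (u : G)⁻¹) := by rw [e1]
      _ = v * (u : G)⁻¹ * n := by group
  refine hi (dual_ext fun x hx => ?_)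
  obtain ⟨u, hu⟩ := Finite.surjective_of_injective hf ⟨x, hx⟩
  rw [← show _ = x from congrArg Subtype.val hu, lin_one, one_of_mem (f u).2]
  simp only [f]
  rw [lin_map_mul_left i (P.inv_mem u.2), e u u.2, lin_map_inv,
    inv_mul_cancel₀ (lin_apply_ne_zero i u.2)]

theorem Leo.mem_of_eq_on (h : Leo P X N) {ψ : G → ℂ} (hψ : ψ ∈ irr (P ⊔ X))
    (hk : ¬ P ≤ cker (P ⊔ X) ψ) {n : G} (hn : n ∈ N) (e : ∀ u ∈ P, ψ (n * u * n⁻¹) = ψ u) :
    n ∈ P ⊔ X := by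
  obtain ⟨i, h1, h2⟩ := exists_lin_of_central hψ (le_sup_left : P ≤ P ⊔ X) h.cent
  refine h.mem_of_lin (i := i) (fun hi => hk fun u hu => mem_cker.2 ⟨Subgroup.mem_sup_left hu,
    fun y => by rw [h2 u hu, hi, lin_one, one_of_mem hu, one_mul]⟩) hn fun u hu => ?_
  have h3 := h2 u hu 1
  have h4 := h2 _ (h.normP.conj_mem n hn u hu) 1
  rw [mul_one] at h3 h4
  exact mul_right_cancel₀ (irr_apply_one_ne_zero hψ) (by rw [← h3, ← h4, e u hu])

theorem Leo.card_conjOrb (h : Leo P X N) {ψ : G → ℂ} (hψ : ψ ∈ irr (P ⊔ X))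
    (hk : ¬ P ≤ cker (P ⊔ X) ψ) : (conjOrb N ψ).card = (P ⊔ X).relIndex N := by
  rw [H51.card_conjOrb, le_antisymm (fun n hn => h.mem_of_eq_on hψ hk (mem_inertia.1 hn).1
    fun u _ => congrFun (mem_inertia.1 hn).2 u) (le_inertia h.normC.le (irr_mem_CF hψ))]

theorem Leo.relIndex_dvd (h : Leo P X N) : (P ⊔ X).relIndex N ∣ Nat.card P - 1 := by
  have hc : ∀ θ ∈ (irr P).erase (one P), ∀ g ∈ N, conjg g θ ∈ (irr P).erase (one P) :=
    fun θ hθ g hg => Finset.mem_erase.2 ⟨fun e => (Finset.mem_erase.1 hθ).1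
      ((conjg_eq_one_iff (h.normP.le_normalizer hg)).1 e),
      conjg_mem_irr (h.normP.le_normalizer hg) (Finset.mem_erase.1 hθ).2⟩
  rw [← card_irr_of_comm h.commP, ← Finset.card_erase_of_mem (one_mem_irr P),
    Finset.card_eq_sum_card_image (ind P N)]
  refine Finset.dvd_sum fun χ hχ => ?_
  obtain ⟨θ, hθ, rfl⟩ := Finset.mem_image.1 hχ
  rw [filter_ind_eq h.normP (Finset.erase_subset _ _) hc hθ, H51.card_conjOrb]
  obtain ⟨h1, h2⟩ := Finset.mem_erase.1 hθ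
  obtain ⟨i, rfl⟩ := exists_lin_of_comm h.commP h2
  rw [show inertia N (lin P i) = P ⊔ X from le_antisymm (fun n hn => h.mem_of_lin (fun e => h1 (lin_eq_one_iff.2 e))
    (mem_inertia.1 hn).1 fun u _ => congrFun (mem_inertia.1 hn).2 u)
    (fun c hc => mem_inertia.2 ⟨h.normC.le hc, conjg_eq_of_centralizes
      (fun x hx => (h.cent x hx c hc).symm) (lin_supp i)⟩)]

/-- the restriction to `C` of a character whose kernel does not contain `P` -/
theorem Leo.exists_orb (h : Leo P X N) {φ : G → ℂ} (hφ : IsChar ⊤ φ) (hk : ¬ P ≤ cker ⊤ φ) :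
    ∃ m : (G → ℂ) → ℕ, (∀ χ ∈ irr (P ⊔ X), dot (P ⊔ X) (res (P ⊔ X) φ) χ = m χ) ∧
      res (P ⊔ X) φ = ∑ χ ∈ irr (P ⊔ X), (m χ : ℂ) • χ ∧ ∑ χ ∈ irr (P ⊔ X), m χ ≤ deg φ ∧
      ∃ ψ ∈ irr (P ⊔ X), ¬ P ≤ cker (P ⊔ X) ψ ∧ ∀ θ ∈ conjOrb N ψ, m θ ≠ 0 := by
  have hr := hφ.res (le_top : P ⊔ X ≤ ⊤)
  obtain ⟨m, h1, h2⟩ := hr.exists_sum
  refine ⟨m, h1, h2, ?_, ?_⟩
  · rw [← deg_res (P ⊔ X), h2, deg_sum _ fun χ hχ => (irr_isChar hχ).natCast_smul _]
    refine Finset.sum_le_sum fun χ hχ => ?_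
    rw [(irr_isChar hχ).deg_natCast_smul]
    exact Nat.le_mul_of_pos_right _ (irr_deg_pos hχ)
  · by_contra hc
    push Not at hc
    refine hk (le_trans (le_cker_of_forall_irr hr.mem_CF le_sup_left fun ψ hψ hd => ?_)
      (by rw [hφ.cker_res le_top]; exact inf_le_right))
    by_contra hk'
    obtain ⟨θ, hθ, e⟩ := hc ψ hψ hk'
    have h3 := dot_res_of_mem_conjOrb h.normC (res_mem_CF le_top hφ.mem_CF) hθ
    rw [res_res h.normC.le, h1 θ (conjOrb_subset_irr h.normC hψ hθ), e, Nat.cast_zero] at h3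
    exact hd h3.symm

theorem leo_arith {f q T k : ℕ} (hf : 0 < f) (hk : 0 < k) (hd : f ∣ q - 1)
    (hq : (f * k) ^ 2 + 1 < q) (h1 : f + 1 ≤ T) (h2 : T + 1 ≤ (f * k) ^ 2)
    (h3 : q * T < f * q + T ^ 2) : T = f + 1 ∧ k = 1 ∧ q = f ^ 2 + f + 1 := by
  obtain ⟨t, ht⟩ := hd
  obtain rfl : q = f * t + 1 := by omega
  have h4 : f * k ^ 2 + 1 ≤ t := by
    refine Nat.succ_le_of_lt (lt_of_mul_lt_mul_left (a := f) ?_ (Nat.zero_le _))
    nlinarith
  have h5 : (f * k) ^ 2 + f ≤ f * t := by nlinarith [Nat.mul_le_mul_left f h4]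
  have h6 : f ^ 2 ≤ (f * k) ^ 2 := Nat.pow_le_pow_left (Nat.le_mul_of_pos_right _ hk) 2
  obtain rfl : T = f + 1 := by
    by_contra hne
    obtain ⟨a, rfl⟩ : ∃ a, T = f + 2 + a := ⟨T - (f + 2), by omega⟩
    obtain ⟨b, hb⟩ : ∃ b, f * t + 1 = f + 2 + a + (f + 2 + b) := ⟨f * t + 1 - (2 * f + 4 + a), by omega⟩
    rcases Nat.lt_or_ge f 3 with h | h
    · rw [hb] at h3
      interval_cases f <;> nlinarith
    · have h7 : f ^ 2 + f + 1 ≤ f + 2 + a + (f + 2 + b) := by omega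
      rw [hb] at h3
      nlinarith
  have h7 : f * t < f ^ 2 + 2 * f := by nlinarith
  have h8 : t < f + 2 := lt_of_mul_lt_mul_left (a := f) (by nlinarith) (Nat.zero_le _)
  obtain rfl : k = 1 := by
    by_contra hne
    have : 2 ≤ k := by omega
    nlinarith [Nat.mul_le_mul_left f (Nat.pow_le_pow_left this 2)]
  obtain rfl : t = f + 1 := by omega
  exact ⟨rfl, rfl, by ring⟩

theorem Leo.main (h : Leo P X N) (hker : ∀ ξ ∈ irr ⊤, ξ ≠ one ⊤ → ¬ P ≤ cker ⊤ ξ) {χ : G → ℂ}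
    (hχ : χ ∈ irr ⊤) (hne : χ ≠ one ⊤) (hdeg : deg χ ^ 2 + 1 < Nat.card P) :
    deg χ = 1 ∧ (P ⊔ X).relIndex N = 1 := by
  have hc := irr_isChar hχ
  have hq : 0 < Nat.card P := Nat.card_pos
  have hf := relIndex_pos (P ⊔ X) N
  have hsq : ∀ (s : Finset (G → ℂ)) (m : (G → ℂ) → ℕ), ∑ ψ ∈ s, m ψ ≤ ∑ ψ ∈ s, m ψ ^ 2 :=
    fun s m => Finset.sum_le_sum fun ψ _ => Nat.le_self_pow two_ne_zero _
  obtain ⟨m, -, h2, h3, ψ, hψ, hk, h4⟩ := h.exists_orb hc (hker χ hχ hne)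
  have hO := conjOrb_subset_irr h.normC hψ
  have h5 := h.key hc.mem_CF (irr_apply_one_ne_zero hχ) subset_rfl h2 (k := 1)
    (by rw [nrm_irr hχ, Nat.cast_one])
  have h6 : res (P ⊔ X) χ = ∑ θ ∈ conjOrb N ψ, θ := by
    rw [h2]
    refine eq_sum_of_sum_le hO h4 ((hsq _ m).trans (Nat.le_of_lt_succ ?_)) id
    rw [h.card_conjOrb hψ hk]
    refine lt_of_mul_lt_mul_left (a := Nat.card P) ?_ hq.le
    nlinarith [Nat.pow_le_pow_left h3 2]
  have h7 : deg χ = (P ⊔ X).relIndex N * deg ψ := by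
    rw [← deg_res (P ⊔ X), h6, deg_sum _ fun θ hθ => irr_isChar (hO hθ),
      Finset.sum_congr rfl fun θ hθ => deg_of_mem_conjOrb hθ, Finset.sum_const, smul_eq_mul,
      h.card_conjOrb hψ hk]
  suffices h8 : deg χ = 1 from ⟨h8, Nat.eq_one_of_mul_eq_one_right (h7 ▸ h8)⟩
  by_contra h8
  have hcc := hc.mul hc.star
  have h9 : ∀ L : Subgroup G, dot L (res L (χ * star χ)) (one L) = nrm L (res L χ) := fun L => by
    rw [res_mul, res_star, dot_mul_left, star_star, ← dot_self,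
      one_mul_CF (res_mem_CF le_top hc.mem_CF)]
  have h10 : dot ⊤ (χ * star χ) (one ⊤) = 1 := by
    have := h9 ⊤
    rwa [res_top, res_top, nrm_irr hχ] at this
  have hΘ := hcc.sub_irr (one_mem_irr ⊤) (by rw [h10]; exact one_ne_zero)
  have h11 : dot P (res P (χ * star χ - one ⊤)) (one P) ≠ 0 := by
    rw [map_sub, dot_sub_left, h9, res_one le_top, dot_one_one, sub_ne_zero]
    intro e
    have := (hc.res (le_top : P ≤ ⊤)).mem_irr_of_nrm (by exact_mod_cast e)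
    exact h8 ((deg_res P χ).symm.trans (deg_eq_one_of_comm h.commP this))
  obtain ⟨ξ, hξ, h12, h13⟩ := exists_irr_between le_top le_rfl hΘ.mem_CF h11
  rw [res_top] at h12
  have hξ1 : ξ ≠ one ⊤ := fun e => h12 (by rw [e, dot_sub_left, h10, dot_one_one, sub_self])
  have h14 : deg ξ + 1 ≤ deg χ ^ 2 := by
    have a := hΘ.deg_le_of_dot_ne_zero hξ h12
    have b := hΘ.deg_add (isChar_one ⊤)
    rw [sub_add_cancel, hc.deg_mul hc.star, deg_star, deg_one] at b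
    nlinarith
  obtain ⟨ψ₀, hψ₀, h15, h16⟩ := exists_irr_between (le_sup_left : P ≤ P ⊔ X) le_top
    (irr_mem_CF hξ) h13
  have hPC : NormalIn P (P ⊔ X) := h.normP.mono le_sup_left h.normC.le
  rw [dot_res_one_ne_zero_iff hPC hψ₀] at h16
  obtain ⟨n, g1, g2, g3, ψ₁, hψ₁, gk, g4⟩ := h.exists_orb (irr_isChar hξ) (hker ξ hξ hξ1)
  have gO := conjOrb_subset_irr h.normC hψ₁
  have g5 : ψ₀ ∉ conjOrb N ψ₁ := fun e =>
    gk ((le_cker_iff_of_mem_conjOrb h.normC h.normP.le_normalizer e).1 h16)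
  have gI : insert ψ₀ (conjOrb N ψ₁) ⊆ irr (P ⊔ X) := Finset.insert_subset hψ₀ gO
  have g6 : ∀ θ ∈ insert ψ₀ (conjOrb N ψ₁), n θ ≠ 0 := fun θ hθ => by
    rcases Finset.mem_insert.1 hθ with rfl | hθ
    · exact fun e => h15 (by rw [g1 _ hψ₀, e, Nat.cast_zero])
    · exact g4 θ hθ
  have g7 : (insert ψ₀ (conjOrb N ψ₁)).card = (P ⊔ X).relIndex N + 1 := by
    rw [Finset.card_insert_of_notMem g5, h.card_conjOrb hψ₁ gk]
  have g8 := h.key (irr_mem_CF hξ) (irr_apply_one_ne_zero hξ) subset_rfl g2 (k := 1)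
    (by rw [nrm_irr hξ, Nat.cast_one])
  obtain ⟨a1, a2, a3⟩ := leo_arith (T := ∑ θ ∈ irr (P ⊔ X), n θ) hf (irr_deg_pos hψ) h.relIndex_dvd
    (h7 ▸ hdeg) (by
      rw [← g7, Finset.card_eq_sum_ones]
      exact (Finset.sum_le_sum fun θ hθ => Nat.one_le_iff_ne_zero.2 (g6 θ hθ)).trans
        (Finset.sum_le_sum_of_subset gI)) (by rw [← h7]; omega)
    (by nlinarith [Nat.mul_le_mul_left (Nat.card P) (hsq (irr (P ⊔ X)) n)])
  have g9 : res (P ⊔ X) ξ = ψ₀ + ∑ θ ∈ conjOrb N ψ₁, θ := by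
    rw [g2, ← Finset.sum_insert (f := fun θ => θ) g5]
    exact eq_sum_of_sum_le gI g6 (by rw [a1, g7]) id
  obtain rfl : ψ₀ = one (P ⊔ X) := by
    have b1 := hcc.dot_res_ne_zero_of_constt le_top hξ (fun e => h12 (hΘ.dot_eq_zero_of_add
      (isChar_one ⊤) (irr_isChar hξ) (by rwa [sub_add_cancel])).1) (irr_isChar hψ₀) h15
    rw [res_mul, res_star, h6, star_sum, Finset.sum_mul_sum, dot_sum_left] at b1
    obtain ⟨θ, hθ, b2⟩ := Finset.exists_ne_zero_of_sum_ne_zero b1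
    rw [dot_sum_left] at b2
    obtain ⟨θ', hθ', b3⟩ := Finset.exists_ne_zero_of_sum_ne_zero b2
    obtain ⟨i, rfl⟩ := (irr_deg_eq_one_iff (hO hθ)).1 ((deg_of_mem_conjOrb hθ).trans a2)
    obtain ⟨j, rfl⟩ := (irr_deg_eq_one_iff (hO hθ')).1 ((deg_of_mem_conjOrb hθ').trans a2)
    rw [star_lin, ← lin_mul] at b3
    obtain rfl := irr_eq_of_dot_ne_zero (lin_mem_irr _) hψ₀ b3
    obtain ⟨g, hg, e⟩ := mem_conjOrb.1 (conjOrb_trans (conjOrb_symm hθ) hθ')
    have b4 := h.mem_of_eq_on (lin_mem_irr i) (fun c => hk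
      ((le_cker_iff_of_mem_conjOrb h.normC h.normP.le_normalizer hθ).1 c)) hg fun u hu => by
        have c := (le_cker_lin_iff le_sup_left).1 h16 u hu
        rw [lin_mul_apply, lin_inv_apply,
          mul_inv_eq_one₀ (lin_apply_ne_zero j (Subgroup.mem_sup_left hu))] at c
        rw [c]
        exact congrFun e u
    rw [conjg_CF_self (lin_mem_CF i) b4, lin_inj] at e
    rw [e, dual_mul_inv, lin_one]
  generalize hfd : (P ⊔ X).relIndex N = f at *
  have hs : ∀ {M : Type _} [AddCommMonoid M] (F : ℕ → (G → ℂ) → M),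
      ∑ θ ∈ insert (one (P ⊔ X)) (conjOrb N ψ₁), F (if θ = one (P ⊔ X) then f + 1 else f) θ =
        F (f + 1) (one (P ⊔ X)) + ∑ θ ∈ conjOrb N ψ₁, F f θ := fun F => by
    rw [Finset.sum_insert g5, if_pos rfl]
    congr 1
    exact Finset.sum_congr rfl fun θ hθ => by rw [if_neg fun e : θ = one (P ⊔ X) => g5 (e ▸ hθ)]
  have hs' : ∀ F : ℕ → ℕ,
      ∑ θ ∈ insert (one (P ⊔ X)) (conjOrb N ψ₁), F (if θ = one (P ⊔ X) then f + 1 else f) =
        F (f + 1) + f * F f := fun F => by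
    rw [Finset.sum_insert g5, if_pos rfl, Finset.sum_congr rfl (g := fun _ => F f) fun θ hθ => by
      rw [if_neg fun e : θ = one (P ⊔ X) => g5 (e ▸ hθ)], Finset.sum_const, h.card_conjOrb hψ₁ gk,
      hfd, smul_eq_mul]
  have c1 := h.key (φ := (f : ℂ) • ξ + one ⊤)
    (add_mem (Submodule.smul_mem _ _ (irr_mem_CF hξ)) (one_mem_CF ⊤)) (by
      rw [Pi.add_apply, Pi.smul_apply, irr_apply_one hξ, one_apply_one, smul_eq_mul]
      exact_mod_cast Nat.succ_ne_zero (f * deg ξ)) gI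
    (m := fun θ => if θ = one (P ⊔ X) then f + 1 else f) (by
      rw [hs fun k θ => (k : ℂ) • θ, map_add, map_smul, g9, res_one le_top, ← Finset.smul_sum]
      push_cast
      module) (k := f ^ 2 + 1) (by
      rw [nrm_add_of_ortho ⊤ (by rw [dot_smul_left, dot_irr_one hξ hξ1, mul_zero]), nrm_natCast_smul,
        nrm_irr hξ, nrm_irr (one_mem_irr ⊤)]
      push_cast
      ring)
  rw [hs' fun k => k ^ 2, hs' fun k => k, a3, hfd] at c1
  nlinarith

omit [Fintype G] in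
theorem exists_leo [Finite G] {p : ℕ} [Fact p.Prime] (P : Sylow p G) (hP : (P : Subgroup G) ≠ ⊥)
    (hstar : ∀ x ∈ (P : Subgroup G), x ≠ 1 → Subgroup.centralizer ({x} : Set G) =
      Subgroup.centralizer ((P : Subgroup G) : Set G)) :
    ∃ X : Subgroup G, (P : Subgroup G) ⊔ X = Subgroup.centralizer ((P : Subgroup G) : Set G) ∧
      Leo (P : Subgroup G) X (Subgroup.normalizer ((P : Subgroup G) : Set G)) := by
  set C := Subgroup.centralizer ((P : Subgroup G) : Set G) with hC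
  have hPC : (P : Subgroup G) ≤ C := fun x hx => by
    by_cases h1 : x = 1
    · exact h1 ▸ C.one_mem
    · rw [← hstar x hx h1]
      exact Subgroup.mem_centralizer_singleton_iff.2 rfl
  have hco : (Nat.card (P : Subgroup G)).Coprime ((P : Subgroup G).relIndex C) :=
    P.card_coprime_index.coprime_dvd_right (Subgroup.relIndex_dvd_index_of_le hPC)
  obtain ⟨X, hX, hs, hi, hc⟩ := H3.exists_complement_in hPC
    (Subgroup.centralizer_le_normalizer _) hco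
  rw [← hc] at hco
  have hcomm : ∀ u ∈ (P : Subgroup G), ∀ c ∈ C, u * c = c * u := fun u hu c hc => hc u hu
  have hdec : ∀ c ∈ C, ∃ u ∈ (P : Subgroup G), ∃ y ∈ X, c = u * y := fun c hc =>
    exists_mul_of_comm (fun a ha b hb => hcomm a ha b (hX hb)) (hs ▸ hc)
  have hone : ∀ {A B : Subgroup G}, (Nat.card A).Coprime (Nat.card B) → ∀ u ∈ A,
      u ^ Nat.card B = 1 → u = 1 := fun h u hu e => orderOf_eq_one_iff.1
    (Nat.eq_one_of_dvd_coprimes h (Subgroup.orderOf_dvd_natCard _ hu) (orderOf_dvd_of_pow_eq_one e))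
  have hpow : ∀ {A : Subgroup G}, ∀ u ∈ A, u ^ Nat.card A = 1 := fun u hu =>
    orderOf_dvd_iff_pow_eq_one.1 (Subgroup.orderOf_dvd_natCard _ hu)
  have hXp : ∀ c ∈ C, c ^ Nat.card X ∈ (P : Subgroup G) ∧ (c ^ Nat.card X = 1 → c ∈ X) ∧
      (c ^ Nat.card (P : Subgroup G) = 1 → c ∈ (P : Subgroup G)) := fun c hc => by
    obtain ⟨u, hu, y, hy, rfl⟩ := hdec c hc
    have h1 : Commute u y := hcomm u hu y (hX hy)
    rw [h1.mul_pow, h1.mul_pow, hpow y hy, hpow u hu, mul_one, one_mul]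
    exact ⟨pow_mem hu _, fun e => by rw [hone hco u hu e, one_mul]; exact hy,
      fun e => by rw [hone hco.symm y hy e, mul_one]; exact hu⟩
  have hN : NormalIn C (Subgroup.normalizer ((P : Subgroup G) : Set G)) := by
    have := (NormalIn.of_le_normalizer (Subgroup.le_normalizer (H := (P : Subgroup G))) le_rfl).centralizer
    rwa [inf_eq_right.2 (Subgroup.centralizer_le_normalizer _)] at this
  refine ⟨X, hs, hi, hs ▸ hcomm, hs ▸ hN, .of_le_normalizer Subgroup.le_normalizer le_rfl,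
    fun n _ u hu h1 e => ?_, ?_⟩
  · rw [hs, ← hstar u hu h1]
    exact Subgroup.mem_centralizer_singleton_iff.2 e
  rw [hs]
  refine ⟨fun h => h.2 X.one_mem, fun x hx => hN.le hx.1, le_top, fun g hg a ha =>
    ⟨hN.conj_mem g hg a ha.1, fun h => ha.2 ((hXp a ha.1).2.1 ?_)⟩, fun g _ a ha hb => ?_⟩
  · simpa [conj_pow] using hpow _ h
  · have h1 := hstar _ (hXp a ha.1).1 fun e => ha.2 ((hXp a ha.1).2.1 e)
    have h2 := hstar _ (hXp _ hb.1).1 fun e => hb.2 ((hXp _ hb.1).2.1 e)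
    refine Subgroup.mem_normalizer_fintype fun u hu => (hXp _ ?_).2.2 (by rw [conj_pow, hpow u hu]; simp)
    have h3 : u ∈ Subgroup.centralizer {a ^ Nat.card X} := h1 ▸ hPC hu
    rw [← h2, conj_pow]
    rw [Subgroup.mem_centralizer_singleton_iff] at h3 ⊢
    calc g * u * g⁻¹ * (g * a ^ Nat.card X * g⁻¹) = g * (u * a ^ Nat.card X) * g⁻¹ := by group
      _ = g * a ^ Nat.card X * g⁻¹ * (g * u * g⁻¹) := by rw [h3]; group

omit [Fintype G] in
/-- Brauer-Leonard: either a proper normal subgroup contains `P`, or `P` is central in its normaliser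
and the small character is linear -/
theorem leonard [Finite G] {p : ℕ} [Fact p.Prime] (P : Sylow p G)
    (hstar : ∀ x ∈ (P : Subgroup G), x ≠ 1 → Subgroup.centralizer ({x} : Set G) =
      Subgroup.centralizer ((P : Subgroup G) : Set G)) {χ : G → ℂ} (hχ : IsIrrCharacter G χ)
    (h1 : χ ≠ fun _ => 1) (hdeg : deg χ ^ 2 + 1 < Nat.card P)
    (hK : ∀ K : Subgroup G, K.Normal → (P : Subgroup G) ≤ K → K = ⊤) :
    deg χ = 1 ∧ Subgroup.normalizer ((P : Subgroup G) : Set G) ≤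
      Subgroup.centralizer ((P : Subgroup G) : Set G) := by
  have := Fintype.ofFinite G
  obtain ⟨X, hs, h⟩ := exists_leo P (fun e => by
    have : Nat.card (P : Subgroup G) = 1 := by rw [e, Subgroup.card_bot]
    omega) hstar
  obtain ⟨h2, h3⟩ := h.main (fun ξ hξ hne hk => hne (irr_eq_one_of_le_cker hξ
    (hK _ (normalIn_top.1 (cker_normalIn (irr_mem_CF hξ))) hk).ge)) (mem_irr_top.2 hχ)
    (one_top (G := G) ▸ h1) hdeg
  exact ⟨h2, hs ▸ Subgroup.relIndex_eq_one.1 h3⟩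

end H8
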